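import Cfsg.Agent.H730.PairRow
import Cfsg.Agent.H710.TwoP
import Cfsg.Agent.H713.Engine

/-!
# Tools for the rows of S4938 (helper287)

* `Bad S b` : a `VZ` element whose class size is divisible by all prime divisors of `#S` different from `b`;
* `pairRow_of_two`, `pairRow_of_three` : assembly;
* `Bad.of_card` : from the order of the centralizer;
* `vz_of_pq` : a counting criterion for elements of order `p q`.
-/

set_option autoImplicit false

namespace Cfsg.Agent.H287.Pair

open Cfsg Subgroup Cfsg.Agent.H713 Cfsg.Agent.H730.Pair Cfsg.Agent.H710.VanCount Cfsg.Agent.H710.TwoP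
open Cfsg.Agent.H716.CopRow Cfsg.Agent.H730

universe u v

/-- a `VZ` element whose class size is divisible by all prime divisors of `#S` different from `b` -/
def Bad (S : Type*) [Group S] (b : ℕ) : Prop :=
  ∃ s : S, VZ S s ∧ ∀ p : ℕ, p.Prime → p ∣ Nat.card S → p ≠ b → p ∣ (centralizer ({s} : Set S)).index

theorem pairRow_of_two {S : Type*} [Group S] {a b : ℕ} (hab : a ≠ b) (h1 : Bad S a) (h2 : Bad S b)
    (h3 : ∃ s : S, VZ S s ∧ a ∣ (centralizer ({s} : Set S)).index ∧ b ∣ (centralizer ({s} : Set S)).index) :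
    PairRow S := by
  intro p q hp hq hpq hpS hqS
  obtain ⟨x, hx, hx'⟩ := h1
  obtain ⟨y, hy, hy'⟩ := h2
  obtain ⟨z, hz, hza, hzb⟩ := h3
  by_cases pa : p = a
  · subst pa
    by_cases qb : q = b
    · subst qb
      exact ⟨z, hz, hza, hzb⟩
    · exact ⟨y, hy, hy' p hp hpS hab, hy' q hq hqS qb⟩
  · by_cases qa : q = a
    · subst qa
      by_cases pb : p = b
      · subst pb
        exact ⟨z, hz, hzb, hza⟩
      · exact ⟨y, hy, hy' p hp hpS pb, hy' q hq hqS hab⟩
    · exact ⟨x, hx, hx' p hp hpS pa, hx' q hq hqS qa⟩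

theorem pairRow_of_three {S : Type*} [Group S] {a b c : ℕ} (hab : a ≠ b) (hac : a ≠ c) (hbc : b ≠ c) (ha : a.Prime)
    (hb : b.Prime) (haS : a ∣ Nat.card S) (hbS : b ∣ Nat.card S) (h1 : Bad S a) (h2 : Bad S b) (h3 : Bad S c) :
    PairRow S := by
  refine pairRow_of_two hab h1 h2 ?_
  obtain ⟨z, hz, h⟩ := h3
  exact ⟨z, hz, h a ha haS hac, h b hb hbS hbc⟩

theorem dvd_of_dvd {N m b : ℕ} (hb : b.Prime) {i j : ℕ} (h : N ∣ b ^ i * m ^ j) {p : ℕ} (hp : p.Prime) (hpN : p ∣ N)
    (hpb : p ≠ b) : p ∣ m := by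
  rcases hp.dvd_mul.1 (hpN.trans h) with h1 | h1
  · exact absurd ((Nat.prime_dvd_prime_iff_eq hp hb).1 (hp.dvd_of_dvd_pow h1)) hpb
  · exact hp.dvd_of_dvd_pow h1

/-- from the order of the centralizer -/
theorem Bad.of_card {S : Type*} [Group S] [Finite S] {s : S} (hs : VZ S s) {b : ℕ} (hb : b.Prime) {N c m : ℕ} (hN : Nat.card S = N)
    (hc : Nat.card (centralizer ({s} : Set S)) = c) (hm : N = c * m) (hc0 : 0 < c) (i j : ℕ) (h : N ∣ b ^ i * m ^ j) :
    Bad S b := by
  refine ⟨s, hs, fun p hp hpS hpb => ?_⟩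
  have h1 := (centralizer ({s} : Set S)).card_mul_index
  rw [hc, hN, hm] at h1
  rw [Nat.eq_of_mul_eq_mul_left hc0 h1]
  rw [hN] at hpS
  exact dvd_of_dvd hb h hp hpS hpb

theorem Bad.mulEquiv {S : Type u} [Group S] {T : Type v} [Group T] (e : S ≃* T) {b : ℕ} (h : Bad S b) : Bad T b := by
  obtain ⟨s, hs, h⟩ := h
  refine ⟨e s, hs.mulEquiv e, fun p hp hpT hpb => ?_⟩
  rw [index_centralizer_mulEquiv]
  exact h p hp (by rwa [Nat.card_congr e.toEquiv]) hpb

/-- **The counting criterion for elements of order `p q`.** -/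
theorem vz_of_pq {G : Type*} [Group G] [Finite G] {p q : ℕ} [hp : Fact p.Prime] [hq : Fact q.Prime] (hpq : p ≠ q)
    (hG : (Nat.card G).factorization p = 1) {x y : G} (hx : orderOf x = p) (hy : orderOf y = q) (hxy : Commute x y)
    (hC : (Nat.card (centralizer ({x} : Set G))).factorization q = 1)
    (h : Nat.card (centralizer ({x * y} : Set G)) < Nat.card (ConjClasses G)) : VZ G (x * y) := by
  refine vz_of_card _ h fun α => ?_
  have hxp : x ^ p = 1 := by rw [← hx]; exact pow_orderOf_eq_one x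
  have hyq : y ^ q = 1 := by rw [← hy]; exact pow_orderOf_eq_one y
  obtain ⟨g, k, hg⟩ := exists_conj_pow (y := α x) hG hx (by rw [MulEquiv.orderOf_eq, hx])
  have hk1 : ¬ p ∣ k := by
    rintro ⟨j, rfl⟩
    rw [pow_mul, hxp, one_pow] at hg
    have h1 : α x = 1 := by
      calc α x = g⁻¹ * (g * α x * g⁻¹) * g := by group
        _ = 1 := by rw [hg]; group
    have h2 : x = 1 := α.injective (by rw [h1, map_one])
    rw [h2, orderOf_one] at hx
    exact hp.out.one_lt.ne hx
  -- the image of `y`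
  have hu : orderOf (g * α y * g⁻¹) = q := by
    have e : g * α y * g⁻¹ = MulAut.conj g (α y) := by rw [MulAut.conj_apply]
    rw [e, MulEquiv.orderOf_eq, MulEquiv.orderOf_eq, hy]
  have hxk : Commute (x ^ k) (g * α y * g⁻¹) := by
    rw [← hg]
    have h1 : Commute (MulAut.conj g (α x)) (MulAut.conj g (α y)) :=
      (hxy.map α.toMonoidHom).map (MulAut.conj g).toMonoidHom
    rwa [MulAut.conj_apply, MulAut.conj_apply] at h1
  have hxu : Commute x (g * α y * g⁻¹) := by
    have hcop : Nat.Coprime k (orderOf x) := by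
      rw [hx]
      exact ((Nat.Prime.coprime_iff_not_dvd hp.out).2 hk1).symm
    obtain ⟨m, hm⟩ := exists_pow_eq_self_of_coprime hcop
    rw [← hm]
    exact hxk.pow_left m
  -- conjugate inside the centralizer of `x`
  set C : Subgroup G := centralizer ({x} : Set G) with hCdef
  have memC : ∀ z : G, z ∈ C ↔ Commute z x := fun z => mem_centralizer_singleton_iff
  have hyC : orderOf (⟨y, (memC y).2 hxy.symm⟩ : C) = q := by rw [Subgroup.orderOf_mk, hy]
  have huC : orderOf (⟨g * α y * g⁻¹, (memC _).2 hxu.symm⟩ : C) = q := by rw [Subgroup.orderOf_mk, hu]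
  obtain ⟨⟨c, hcC⟩, j, hc⟩ := exists_conj_pow (p := q) (G := C) hC hyC huC
  have hc' : c * (g * α y * g⁻¹) * c⁻¹ = y ^ j := congrArg Subtype.val hc
  have hcx : Commute c x := (memC c).1 hcC
  -- the exponent
  obtain ⟨l, hl⟩ := Nat.chineseRemainder ((Nat.coprime_primes hp.out hq.out).2 hpq) k j
  have hl1 : x ^ l = x ^ k := by
    rw [pow_eq_pow_iff_modEq, hx]
    exact hl.1
  have hl2 : y ^ l = y ^ j := by
    rw [pow_eq_pow_iff_modEq, hy]
    exact hl.2
  refine ⟨l, ?_⟩
  rw [hxy.mul_pow, hl1, hl2]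
  refine (isConj_iff.2 ⟨c * g, ?_⟩ : IsConj (α (x * y)) (x ^ k * y ^ j)).symm
  rw [map_mul]
  calc c * g * (α x * α y) * (c * g)⁻¹ = c * (g * α x * g⁻¹) * c⁻¹ * (c * (g * α y * g⁻¹) * c⁻¹) := by group
    _ = c * x ^ k * c⁻¹ * y ^ j := by rw [hg, hc']
    _ = x ^ k * y ^ j := by rw [(hcx.pow_right k).eq, mul_inv_cancel_right]

/-- The order of `C(s)` is not divisible by `p` if the centralizers of the elements of order `p` are small. -/
theorem not_dvd_card_cent {G : Type*} [Group G] [Finite G] {p : ℕ} [hp : Fact p.Prime]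
    (hG : (Nat.card G).factorization p = 1) {x : G} (hx : orderOf x = p) {m : ℕ}
    (hC : Nat.card (centralizer ({x} : Set G)) ≤ m) {s : G} (hs : p.Coprime (orderOf s)) (hm : m < p * orderOf s) :
    ¬ p ∣ Nat.card (centralizer ({s} : Set G)) := by
  intro h
  obtain ⟨z, hz⟩ := exists_prime_orderOf_dvd_card' p h
  have hz' : orderOf (z : G) = p := by rw [Subgroup.orderOf_coe, hz]
  have hzs : Commute (z : G) s := mem_centralizer_singleton_iff.1 z.2
  obtain ⟨g, k, hg⟩ := exists_conj_pow hG hx hz'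
  have hk1 : ¬ p ∣ k := by
    rintro ⟨j, rfl⟩
    rw [pow_mul, ← hx, pow_orderOf_eq_one, one_pow] at hg
    have h1 : (z : G) = 1 := by
      calc (z : G) = g⁻¹ * (g * z * g⁻¹) * g := by group
        _ = 1 := by rw [hg]; group
    rw [h1, orderOf_one] at hz'
    exact hp.out.one_lt.ne hz'
  have hxk : Commute (x ^ k) (g * s * g⁻¹) := by
    rw [← hg]
    have h1 : Commute (MulAut.conj g z) (MulAut.conj g s) := hzs.map (MulAut.conj g).toMonoidHom
    rwa [MulAut.conj_apply, MulAut.conj_apply] at h1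
  have hxu : Commute x (g * s * g⁻¹) := by
    have hcop : Nat.Coprime k (orderOf x) := by
      rw [hx]
      exact ((Nat.Prime.coprime_iff_not_dvd hp.out).2 hk1).symm
    obtain ⟨l, hl⟩ := exists_pow_eq_self_of_coprime hcop
    rw [← hl]
    exact hxk.pow_left l
  have hso : orderOf (g * s * g⁻¹) = orderOf s := by
    rw [← MulAut.conj_apply, MulEquiv.orderOf_eq]
  have h3 : orderOf (x * (g * s * g⁻¹)) = p * orderOf s := by
    rw [hxu.orderOf_mul_eq_mul_orderOf_of_coprime (by rwa [hx, hso]), hx, hso]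
  have h4 : x * (g * s * g⁻¹) ∈ centralizer ({x} : Set G) :=
    mem_centralizer_singleton_iff.2 ((Commute.refl x).mul_left hxu.symm)
  have h5 := orderOf_dvd_natCard (⟨_, h4⟩ : centralizer ({x} : Set G))
  rw [Subgroup.orderOf_mk, h3] at h5
  exact absurd (Nat.le_of_dvd Nat.card_pos h5) (by omega)

end Cfsg.Agent.H287.Pair
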